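import Mathlib
import Cfsg.Agent.Lib.Helper41.CS3.GoodDefs
import Cfsg.Agent.Lib.Helper71.CS3.Basics

/-!
# CS3 (S4284), part GOOD: assembly of `PkgGood` from the packages of `GoodDefs`.
-/

set_option autoImplicit false

namespace Cfsg.Agent.Lib.Helper41.CS3

universe u

open Cfsg.Agent.Lib.Helper81.CS3

theorem pkgGood_of (hCover : PkgCover.{u}) (hExy : PkgExy.{u}) (hMsa : PkgMsa.{u})
    (hMs : PkgMs.{u}) (hConj : PkgConj.{u}) (hMsb : PkgMsb.{u}) (hNC : PkgNC.{u})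
    (hG1 : PkgG1.{u}) (hIto : PkgIto.{u}) (hS1 : PkgS1.{u}) (hS2 : PkgS2.{u}) (hS3 : PkgS3.{u})
    (hS4 : PkgS4.{u}) (hS5 : PkgS5.{u}) (hG3 : PkgG3.{u}) (hG4c : PkgG4c.{u})
    (hG4d : PkgG4d.{u}) (hG5 : PkgG5.{u}) (hG6fin : PkgG6fin.{u}) (hHy : PkgHy.{u})
    (hNrm : PkgNrm.{u}) (hG6c : PkgG6c.{u}) : PkgGood.{u} := by
  intro G _ _ m n hyp hex
  obtain ⟨a, hia, s, k, hsp, hsm, hk⟩ := hex
  have hm1 : 1 < m := hyp.2.1
  have hgood : Good m s a := ⟨hsp, hsm, ⟨k, hk⟩, hia⟩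
  obtain ⟨Sa, N, hdec⟩ := hG1 m n hyp s a hgood
  have hN : Ab N := by
    by_contra hnab
    obtain ⟨t, T, B, hbad⟩ := hIto m n hyp s a Sa N hgood hdec hnab
    obtain ⟨y1, hy1T, hy1⟩ := hS1 m n hyp s t a Sa T B hgood hbad
    obtain ⟨A, hconf⟩ := hS2 m n hyp s t a Sa T B hgood hbad y1 hy1T hy1
    have h3 := hS3 m n hyp t a A T hia hconf
    have h4 := hS4 m n hyp s t a A T hgood hconf h3
    have h5 := hS5 m n hyp s t a A T hgood hconf h4
    have hne : Cn a ≠ ⊤ := by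
      intro htop
      have h1 : ix a = 1 := by
        show (Subgroup.centralizer ({a} : Set G)).index = 1
        have : Subgroup.centralizer ({a} : Set G) = ⊤ := htop
        rw [this, Subgroup.index_top]
      have h2 : ix a = m := hia
      omega
    obtain ⟨x, hx⟩ := hCover (Cn a) hne
    obtain ⟨g, hg⟩ := h5 x
    exact hx g hg
  have hH : Ab (Cn a) := hG3 m n hyp s a Sa N hgood hdec hN
  have h4c := hG4c m n hyp a hia hH
  have h4d := hG4d m n hyp a hia hH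
  by_cases hpow : ∃ j : ℕ, m = s ^ j
  · exact hG5 m n hyp s a hgood hpow h4d
  · refine hG6fin m n hyp a hia hH ?_
    intro s' hs'p hs'm
    have hex2 : ∃ s2 : ℕ, s2.Prime ∧ s2 ∣ m ∧ s2 ≠ s' := by
      by_contra hno
      apply hpow
      have hall : ∀ d : ℕ, d.Prime → d ∣ m → d = s' := by
        intro d hd hdm
        by_contra hne
        exact hno ⟨d, hd, hdm, hne⟩
      have hs : s = s' := hall s hsp hsm
      refine ⟨m.primeFactorsList.length, ?_⟩
      rw [hs]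
      exact Nat.eq_prime_pow_of_unique_prime_dvd (by omega) (fun {d} hd hdm => hall d hd hdm)
    obtain ⟨s2, hs2p, hs2m, hs2ne⟩ := hex2
    haveI : Fact s'.Prime := ⟨hs'p⟩
    obtain ⟨S⟩ : Nonempty (Sylow s' G) := inferInstance
    have hSnab : ¬ Ab (S : Subgroup G) := by
      intro hab
      apply Cfsg.Agent.Lib.Helper71.CS3.sylow_not_le_center hyp hs'm S
      intro z hz
      exact Cfsg.Agent.Lib.Helper71.CS3.center_sylow_le hyp hs'm S hz (fun y hy => hab z hz y hy)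
    obtain ⟨y, hy⟩ := hExy s' hs'p (S : Subgroup G) S.isPGroup' hSnab
    have hync : y ∉ Subgroup.center G := by
      obtain ⟨σ, hσ, hne⟩ := hy.nc
      intro hc
      exact hne ((Subgroup.mem_center_iff.mp hc σ).symm)
    have hnrm : Nrm (S : Subgroup G) (Cn y) := hNrm m n hyp s' hs'p hs'm S y hy
    rcases Cfsg.Agent.Lib.Helper71.CS3.idx_cases hyp y with h1 | h1 | h1
    · exact absurd ((Cfsg.Agent.Lib.Helper71.CS3.idx_eq_one_iff y).mp h1) hync
    · obtain ⟨g, hg⟩ := h4c y h1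
      rw [hg] at hnrm
      exact hConj s' S a g hnrm
    · obtain ⟨hyab, hyv⟩ := hHy m n hyp s' s2 a y hs'p hs'm hs2p hs2m hs2ne hia hH hy.prim h1
      obtain ⟨hm1', hm2'⟩ := hMsa s' hs'p (S : Subgroup G) y hy
      obtain ⟨u, huC, hup, hunc⟩ := hNC m n hyp s2 hs2p hs2m y
      have hsq : ¬ s' ^ 2 ∣ m := by
        intro hsq
        have hrel := hMsb m n s' hs'p S y h1 hsq
        exact hMs s' s2 hs'p hs2p hs2ne (S : Subgroup G) y hyab hnrm hm1' hm2' hyv
          ⟨u, huC, hup, hunc⟩ hrel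
      exact hG6c m n hyp s' a hs'p hs'm hia hH hsq

end Cfsg.Agent.Lib.Helper41.CS3
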